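import Cfsg.Agent.Lib.Helper35.Fi23a.PChk3

namespace Cfsg.Agent.Lib.Helper35.Fi23a

open Cfsg.Agent.Lib.Helper35

theorem hsub : allBelow (fixAll sl) 1 = true := by decide +kernel

noncomputable def permData : PermData PresFi23.cc.C PresFi23.cc.inv PresFi23.R S 31670 where
  pt := pt
  hinvC := PresFi23.hinvC
  hinv2 := PresFi23.hinv2
  hinvE := PresFi23.hinvE
  hchk := by
    intro c hc
    have hc' : c < 10 := hc
    interval_cases c
    exacts [c0u3, c1u3, c2u3, c3u3, c4u3, c5u3, c6u3, c7u3, c8u3, c9u3]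
  hrel := fix_of_leaves' rl 31671 ru673
  hsub := fun b hb => fix_of_leaves sl 1 hsub b hb 0 (by decide)
  hRC := PresFi23.hRC
  hSC := by decide +kernel
  tp := tp
  cK := 16
  htree := tu5


noncomputable def orbData : OrbData permData where
  sl := sl
  hsl := rfl
  ot := ot
  db := 6
  rep := rep
  hchk := allBelow_of_forall _ _ ou102

theorem ocnt0 : countBelow (fun j => Nat.beq (orbData.lab j) 0) 31671 = 1 := l0n1
theorem orep0 : orbData.lab (orbData.rep 0) = 0 := by decide +kernel
theorem ocnt1 : countBelow (fun j => Nat.beq (orbData.lab j) 1) 31671 = 28160 := l1n1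
theorem orep1 : orbData.lab (orbData.rep 1) = 1 := by decide +kernel
theorem ocnt2 : countBelow (fun j => Nat.beq (orbData.lab j) 2) 31671 = 3510 := l2n1
theorem orep2 : orbData.lab (orbData.rep 2) = 2 := by decide +kernel
end Cfsg.Agent.Lib.Helper35.Fi23a
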